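import Cfsg.Agent.Lib.PrimeElementOrders.Basic
import Cfsg.Agent.Lib.SL2.Torus
import Cfsg.Agent.Lib.ClassicalLinear.Card

/-!
`PSL₂(q)` with all element orders powers of two or primes other than five has `q = 7`.
-/

set_option autoImplicit false

namespace CfsgLib.PrimeElementOrders

open Matrix

theorem three_dvd_cases (a : ℕ) : 3 ∣ a ∨ 3 ∣ a + 1 ∨ 3 ∣ a + 2 := by omega

theorem three_dvd_two_pow_add_one {k : ℕ} (hk : Odd k) : 3 ∣ 2 ^ k + 1 := by
  obtain ⟨j, rfl⟩ := hk
  have h : 2 ^ (2 * j + 1) % 3 = 2 := by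
    rw [pow_add, pow_mul, Nat.mul_mod, Nat.pow_mod]; norm_num
  exact Nat.dvd_of_mod_eq_zero (by rw [Nat.add_mod, h])

theorem three_dvd_two_pow_sub_one {k : ℕ} (hk : Even k) : 3 ∣ 2 ^ k - 1 := by
  obtain ⟨j, rfl⟩ := hk
  have h : 2 ^ (j + j) % 3 = 1 := by
    rw [← two_mul, pow_mul, Nat.pow_mod]; norm_num
  omega

/-- A power of three is not `2^j + 1` for `j ≥ 4`. -/
theorem three_pow_ne_two_pow_add_one {f j : ℕ} (hj : 4 ≤ j) : 3 ^ f ≠ 2 ^ j + 1 := by
  intro h
  obtain ⟨i, rfl⟩ : ∃ i, j = i + 4 := ⟨j - 4, by omega⟩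
  have h16 : 3 ^ f % 16 = 1 := by
    rw [h, pow_add]; norm_num [Nat.add_mod, Nat.mul_mod]
  have h4 : f % 4 = 0 := by
    have e : 3 ^ f % 16 = 3 ^ (f % 4) % 16 := by
      conv_lhs => rw [← Nat.div_add_mod f 4]
      rw [pow_add, pow_mul, Nat.mul_mod, Nat.pow_mod]
      norm_num
    have := Nat.mod_lt f (show 4 > 0 by norm_num)
    interval_cases hf : f % 4 <;> omega
  have h5 : 3 ^ f % 5 = 1 := by
    rw [← Nat.div_add_mod f 4, h4, add_zero, pow_mul, Nat.pow_mod]; norm_num
  have h6 : 5 ∣ 2 ^ (i + 4) := by omega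
  exact absurd (Nat.prime_five.dvd_of_dvd_pow h6) (by norm_num)

/-- A power of three is not `2^j - 1` for `j ≥ 3`. -/
theorem three_pow_ne_two_pow_sub_one {f j : ℕ} (hj : 3 ≤ j) : 3 ^ f + 1 ≠ 2 ^ j := by
  intro h
  obtain ⟨i, rfl⟩ : ∃ i, j = i + 3 := ⟨j - 3, by omega⟩
  have h8 : 2 ^ (i + 3) % 8 = 0 := by rw [pow_add]; norm_num [Nat.mul_mod]
  have h3 : 3 ^ f % 8 = 1 ∨ 3 ^ f % 8 = 3 := by
    rw [← Nat.div_add_mod f 2, pow_add, pow_mul, Nat.mul_mod, Nat.pow_mod]
    rcases Nat.mod_two_eq_zero_or_one f with e | e <;> rw [e] <;> norm_num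
  omega

variable {F : Type*} [Field F] [Fintype F]

/-- The orders forced by the two tori. -/
theorem torus_good (h : EO (ProjectiveSpecialLinearGroup (Fin 2) F)) {e : ℕ}
    (he : e = Nat.card F - 1 ∨ e = Nat.card F + 1) (he3 : 3 ≤ e)
    (hd : Nat.gcd 2 (Nat.card F - 1) ∣ e) :
    (∃ k, e / Nat.gcd 2 (Nat.card F - 1) = 2 ^ k) ∨
      ((e / Nat.gcd 2 (Nat.card F - 1)).Prime ∧ e / Nat.gcd 2 (Nat.card F - 1) ≠ 5) := by
  classical
  obtain ⟨g, -, hg, -⟩ := CfsgLib.SL2.exists_torus_generator he he3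
  let π : SpecialLinearGroup (Fin 2) F →* ProjectiveSpecialLinearGroup (Fin 2) F := QuotientGroup.mk' _
  set z := Nat.gcd 2 (Nat.card F - 1) with hz
  set n := orderOf (π g) with hn
  have hzc : Nat.card (Subgroup.center (SpecialLinearGroup (Fin 2) F)) = z := by
    rw [CfsgLib.ClassicalLinear.card_center_SL, Fintype.card_fin, hz, Nat.card_eq_fintype_card]
  have h1 : e ∣ n * z := by
    rw [← hg]
    refine orderOf_dvd_of_pow_eq_one ?_
    have h2 : g ^ n ∈ Subgroup.center (SpecialLinearGroup (Fin 2) F) := by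
      rw [← QuotientGroup.eq_one_iff]
      show π (g ^ n) = 1
      rw [map_pow, hn, pow_orderOf_eq_one]
    rw [pow_mul, ← hzc]
    exact congrArg Subtype.val (pow_card_eq_one' (x := (⟨g ^ n, h2⟩ :
      Subgroup.center (SpecialLinearGroup (Fin 2) F))))
  have hm : e / z ∣ n := by
    obtain ⟨c, rfl⟩ := hd
    have hzpos : 0 < z := Nat.gcd_pos_of_pos_left _ two_pos
    rw [Nat.mul_div_cancel_left _ hzpos]
    rw [mul_comm n z] at h1
    exact (mul_dvd_mul_iff_left hzpos.ne').1 h1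
  by_cases hgne : π g = 1
  · rw [hn, hgne, orderOf_one, Nat.dvd_one] at hm
    exact Or.inl ⟨0, by rw [hm, pow_zero]⟩
  rcases h _ hgne with ⟨k, hk⟩ | ⟨hp, h5⟩
  · rw [← hn] at hk
    rw [hk] at hm
    obtain ⟨j, -, hj⟩ := (Nat.dvd_prime_pow Nat.prime_two).1 hm
    exact Or.inl ⟨j, hj⟩
  · rw [← hn] at hp h5
    rcases (Nat.dvd_prime hp).1 hm with e1 | e1
    · exact Or.inl ⟨0, by rw [e1, pow_zero]⟩
    · exact Or.inr (e1 ▸ ⟨hp, h5⟩)

/-- `q = 7`. -/
theorem card_eq_seven (h : EO (ProjectiveSpecialLinearGroup (Fin 2) F))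
    (h3 : 3 ≤ (Nat.card (ProjectiveSpecialLinearGroup (Fin 2) F)).primeFactors.card) :
    Fintype.card F = 7 := by
  classical
  have hc := CfsgLib.ClassicalLinear.card_PSL_two (F := F) rfl
  rw [← Nat.card_eq_fintype_card] at hc ⊢
  have hq1 : 1 < Nat.card F := Finite.one_lt_card
  obtain ⟨p, hchar⟩ := CharP.exists F
  obtain ⟨f, hp, hqf⟩ := FiniteField.card F p
  rw [← Nat.card_eq_fintype_card] at hqf
  set q := Nat.card F with hq
  set N := Nat.card (ProjectiveSpecialLinearGroup (Fin 2) F) with hN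
  have hN12 : ¬ N ∣ 2 ^ 2 * 3 := by
    intro hd
    have hsub : N.primeFactors ⊆ {2, 3} := by
      intro r hr
      obtain ⟨hr1, hr2, -⟩ := Nat.mem_primeFactors.1 hr
      simp only [Finset.mem_insert, Finset.mem_singleton]
      rcases (Nat.Prime.dvd_mul hr1).1 (hr2.trans hd) with e | e
      · exact Or.inl ((Nat.prime_dvd_prime_iff_eq hr1 Nat.prime_two).1 (hr1.dvd_of_dvd_pow e))
      · exact Or.inr ((Nat.prime_dvd_prime_iff_eq hr1 Nat.prime_three).1 e)
    have := Finset.card_le_card hsub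
    have h2 : ({2, 3} : Finset ℕ).card ≤ 2 := Finset.card_le_two
    omega
  by_cases hsmall : q ≤ 5
  · exfalso
    have h5 := h.five_not_dvd
    rw [← hN] at h5
    interval_cases hqv : q <;> norm_num at hc
    · exact hN12 (by rw [hc]; norm_num)
    · exact hN12 (by rw [show N = 12 by omega]; norm_num)
    · omega
    · omega
  push Not at hsmall
  have ha := torus_good h (e := q - 1) (Or.inl rfl) (by omega) (Nat.gcd_dvd_right _ _)
  rcases hp.eq_two_or_odd with hp2 | hp2
  · -- even `q`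
    exfalso
    have hqe : q % 2 = 0 := by
      rw [hqf, hp2]; exact Nat.pow_mod _ _ _ |>.trans (by simp [Nat.pos_iff_ne_zero.1 f.pos])
    have hg : Nat.gcd 2 (q - 1) = 1 := by
      rw [← Nat.coprime_iff_gcd_eq_one, Nat.coprime_two_left, Nat.odd_iff]; omega
    have hb := torus_good h (e := q + 1) (Or.inr rfl) (by omega) (by rw [hg]; exact one_dvd _)
    rw [← hq, hg, Nat.div_one] at ha hb
    have key : ∀ m : ℕ, m % 2 = 1 → 3 < m → ((∃ k, m = 2 ^ k) ∨ (m.Prime ∧ m ≠ 5)) → ¬ 3 ∣ m := by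
      intro m hm h1 hh hd
      rcases hh with ⟨k, rfl⟩ | ⟨hmp, -⟩
      · rcases k with _ | k
        · omega
        · rw [pow_succ] at hm; omega
      · exact absurd ((Nat.prime_dvd_prime_iff_eq Nat.prime_three hmp).1 hd) (by omega)
    rcases Nat.even_or_odd (f : ℕ) with he | ho
    · exact key (q - 1) (by omega) (by omega) ha (hqf ▸ hp2 ▸ three_dvd_two_pow_sub_one he)
    · exact key (q + 1) (by omega) (by omega) hb (hqf ▸ hp2 ▸ three_dvd_two_pow_add_one ho)
  -- odd `q`
  have hqo : q % 2 = 1 := by rw [hqf, Nat.pow_mod, hp2, one_pow, Nat.one_mod]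
  have hg : Nat.gcd 2 (q - 1) = 2 := Nat.gcd_eq_left (by omega)
  have hb := torus_good h (e := q + 1) (Or.inr rfl) (by omega) (by rw [hg]; omega)
  rw [← hq, hg] at ha hb
  have hq3 : ∀ (hd : 3 ∣ q), q = 3 ^ (f : ℕ) := fun hd => by
    rw [hqf, (Nat.prime_dvd_prime_iff_eq Nat.prime_three hp).1 (Nat.prime_three.dvd_of_dvd_pow (hqf ▸ hd))]
  rcases Nat.even_or_odd ((q - 1) / 2) with hae | hao
  · exfalso
    obtain ⟨k, hk⟩ : ∃ k, (q - 1) / 2 = 2 ^ k := by
      rcases ha with hk | ⟨hp', -⟩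
      · exact hk
      · exact ⟨1, by rw [pow_one]; exact hp'.even_iff.1 hae⟩
    have hbodd : ((q + 1) / 2) % 2 = 1 := by
      obtain ⟨c, hc'⟩ := hae; omega
    have hbp : ((q + 1) / 2).Prime ∧ (q + 1) / 2 ≠ 5 := by
      rcases hb with ⟨j, hj⟩ | hh
      · rcases j with _ | j
        · omega
        · rw [hj, pow_succ] at hbodd; omega
      · exact hh
    have hk2 : 2 ≤ k := by
      rcases k with _ | _ | k
      · simp at hk; omega
      · simp at hk; omega
      · omega
    have hk3 : 3 ≤ k := by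
      by_contra hh
      obtain rfl : k = 2 := by omega
      simp at hk; omega
    rcases Nat.even_or_odd k with he | ho
    · have h31 : 3 ∣ 2 ^ (k + 1) + 1 := three_dvd_two_pow_add_one (Even.add_one he)
      have e1 : q = 2 ^ (k + 1) + 1 := by rw [pow_succ]; omega
      have e2 := hq3 (e1 ▸ h31)
      exact three_pow_ne_two_pow_add_one (f := f) (j := k + 1) (by omega) (by rw [← e2, e1])
    · have h31 : 3 ∣ (q + 1) / 2 := by
        rw [show (q + 1) / 2 = 2 ^ k + 1 by omega]; exact three_dvd_two_pow_add_one ho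
      have := (Nat.prime_dvd_prime_iff_eq Nat.prime_three hbp.1).1 h31
      have := Nat.pow_le_pow_right two_pos hk3
      omega
  · obtain ⟨k, hk⟩ : ∃ k, (q + 1) / 2 = 2 ^ k := by
      rcases hb with hk | ⟨hp', -⟩
      · exact hk
      · refine ⟨1, ?_⟩
        rw [pow_one]
        refine hp'.even_iff.1 ?_
        obtain ⟨c, hc'⟩ := hao
        exact ⟨c + 1, by omega⟩
    have hap : ((q - 1) / 2).Prime := by
      rcases ha with ⟨j, hj⟩ | ⟨hh, -⟩
      · rcases j with _ | j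
        · simp at hj; omega
        · rw [hj, pow_succ] at hao
          exact absurd hao (by simp [parity_simps])
      · exact hh
    have hk2 : 2 ≤ k := by
      rcases k with _ | _ | k
      · simp at hk; omega
      · simp at hk; omega
      · omega
    rcases Nat.even_or_odd k with he | ho
    · have h31 : 3 ∣ (q - 1) / 2 := by
        rw [show (q - 1) / 2 = 2 ^ k - 1 by omega]; exact three_dvd_two_pow_sub_one he
      have := (Nat.prime_dvd_prime_iff_eq Nat.prime_three hap).1 h31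
      omega
    · exfalso
      have h31 := three_dvd_two_pow_sub_one (k := k + 1) (Odd.add_one ho)
      have hpk : 2 ^ (k + 1) = 2 * 2 ^ k := by rw [pow_succ]; ring
      have hqeq : q = 2 ^ (k + 1) - 1 := by
        have h1 : q + 1 = 2 * ((q + 1) / 2) := by omega
        rw [hk, ← hpk] at h1
        exact (Nat.sub_eq_of_eq_add h1.symm).symm
      have e2 := hq3 (hqeq ▸ h31)
      exact three_pow_ne_two_pow_sub_one (f := f) (j := k + 1) (by omega) (by omega)

end CfsgLib.PrimeElementOrders
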