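import Cfsg.Agent.Lib.PrimeElementOrders.Dichotomy
import Cfsg.Agent.Lib.Involutions.StronglyEmbedded
import Cfsg.Agent.Lib.Frobenius.Kernel
import Cfsg.Agent.S0340

/-!
No composite maximal 2-local: a Zassenhaus group.
-/

set_option autoImplicit false

open Cfsg
open scoped Pointwise

namespace CfsgLib.PrimeElementOrders

variable {G : Type*} [Group G] [Finite G]

theorem isConj_involutions (hsimple : IsSimpleGroup G) {H : Subgroup G} (hH : IsStronglyEmbedded H)
    {u v : G} (huH : u ∈ H) (hvH : v ∈ H) (hu : orderOf u = 2) (hv : orderOf v = 2) : IsConj u v := by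
  obtain ⟨t, ht2, htH⟩ : ∃ t : G, orderOf t = 2 ∧ t ∉ H := by
    by_contra! hall
    have h1 : Subgroup.normalClosure {u} ≤ H := by
      rw [Subgroup.normalClosure, Subgroup.closure_le]
      intro y hy
      obtain ⟨_, rfl, hc⟩ := Group.mem_conjugatesOfSet_iff.1 hy
      obtain ⟨c, rfl⟩ := isConj_iff.1 hc
      exact hall _ (by rw [Involutions.orderOf_conj, hu])
    rcases (Subgroup.normalClosure_normal : (Subgroup.normalClosure {u}).Normal).eq_bot_or_eq_top with e | e
    · have := Subgroup.subset_normalClosure (Set.mem_singleton u)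
      rw [e] at this
      rw [Subgroup.mem_bot.1 this, orderOf_one] at hu
      omega
    · exact hH.1 (top_le_iff.1 (e ▸ h1))
  have key : ∀ w ∈ H, orderOf w = 2 → IsConj w t := by
    intro w hw hw2
    by_contra hnc
    obtain ⟨z, hz2, hzw, hzt, -⟩ := Involutions.exists_commuting_involution hw2 ht2 hnc
    have hzH : z ∈ H := Involutions.mem_of_conj_mem_of_stronglyEmbedded hH hw hw2
      (by rw [hzw, mul_inv_cancel_right]; exact hw)
    exact htH (Involutions.mem_of_conj_mem_of_stronglyEmbedded hH hzH hz2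
      (by rw [← hzt, mul_inv_cancel_right]; exact hzH))
  exact (key u huH hu).trans (key v hvH hv).symm

/-- Without a composite maximal 2-local the group is a simple Zassenhaus group. -/
theorem Ctx.psl_or_suzuki (hC : Ctx G) (hno : ∀ M q x s T k, ¬ Local1 (G := G) M q x s T k) :
    (∃ (F : Type) (_ : Field F) (_ : Fintype F),
        Nonempty (G ≃* Matrix.ProjectiveSpecialLinearGroup (Fin 2) F)) ∨ IsSuzuki G := by
  classical
  have : Fact (Nat.Prime 2) := ⟨Nat.prime_two⟩
  have := hC.simple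
  -- the core of a maximal local is a Sylow subgroup
  have hcore : ∀ L : Subgroup G, IsMaxLoc L → (∀ R : Subgroup G, IsPGroup 2 R → R ≤ L → R ≤ pCoreOf 2 L) ∧
      (∃ S : Sylow 2 G, (S : Subgroup G) = pCoreOf 2 L) ∧
      (L = pCoreOf 2 L ∨ ∃ q x, Nat.Prime q ∧ q ≠ 2 ∧ x ∈ L ∧ orderOf x = q ∧
        Nat.card L = Nat.card (pCoreOf 2 L) * q) := by
    intro L hL
    obtain ⟨T, -, hTL, hT, hmax⟩ := exists_max_two (IsPGroup.of_bot : IsPGroup 2 (⊥ : Subgroup G)) (bot_le : ⊥ ≤ L)
    rcases hC.structure_maxLoc hL hTL hT hmax with ⟨hTD, hall, hcases⟩ | ⟨q, x, s, k, h⟩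
    swap
    · exact absurd h (hno L q x s T k)
    refine ⟨hall, ?_, hcases⟩
    obtain ⟨S, hS⟩ := (isPGroup_pCoreOf L).exists_le_sylow
    refine ⟨S, ?_⟩
    by_contra hne
    obtain ⟨g, hgS, hgN, hgD⟩ := exists_normalizer_notMem S.2 (lt_of_le_of_ne hS (Ne.symm hne))
    rw [hL.normalizer_core] at hgN
    exact hgD (hall (Subgroup.zpowers g) (S.2.to_le (Subgroup.zpowers_le.2 hgS))
      (Subgroup.zpowers_le.2 hgN) (Subgroup.mem_zpowers g))
  -- Sylow subgroups meet trivially
  have hTI : ∀ n : ℕ, ∀ S₁ S₂ : Sylow 2 G, ∀ R : Subgroup G, R ≤ (S₁ : Subgroup G) → R ≤ (S₂ : Subgroup G) →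
      R ≠ ⊥ → Nat.card G ≤ n + Nat.card R → S₁ = S₂ := by
    intro n
    induction n with
    | zero =>
      intro S₁ S₂ R h1 h2 _ hn
      have e : R = ⊤ := Subgroup.eq_top_of_card_eq R
        (le_antisymm (Subgroup.card_le_card_group R) (by omega))
      exact Sylow.ext (((top_le_iff.1 (e ▸ h1)) : (S₁ : Subgroup G) = ⊤).trans
        (top_le_iff.1 (e ▸ h2) : (S₂ : Subgroup G) = ⊤).symm)
    | succ n ih =>
      intro S₁ S₂ R h1 h2 hne hn
      obtain ⟨L, hL, hN⟩ := exists_maxLoc_normalizer (S₁.2.to_le h1) hne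
      obtain ⟨hall, ⟨S₃, hS₃⟩, -⟩ := hcore L hL
      have step : ∀ S : Sylow 2 G, R ≤ (S : Subgroup G) → (R = (S : Subgroup G) → False) → S = S₃ := by
        intro S hR hne'
        obtain ⟨g, hgS, hgN, hgR⟩ := exists_normalizer_notMem S.2 (lt_of_le_of_ne hR hne')
        have hlt : R < R ⊔ Subgroup.zpowers g :=
          lt_of_le_of_ne le_sup_left fun e => hgR (e ▸ le_sup_right (a := R) (Subgroup.mem_zpowers g))
        have hle : R ⊔ Subgroup.zpowers g ≤ (S : Subgroup G) := sup_le hR (Subgroup.zpowers_le.2 hgS)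
        refine ih S S₃ (R ⊔ Subgroup.zpowers g) hle ?_ ?_ ?_
        · exact hS₃ ▸ hall _ (S.2.to_le hle)
            (sup_le (Subgroup.le_normalizer.trans hN) (Subgroup.zpowers_le.2 (hN hgN)))
        · exact fun e => hne (le_bot_iff.1 (e ▸ le_sup_left))
        · have := two_mul_card_le hlt
          have := Nat.card_pos (α := R)
          omega
      by_cases e1 : R = (S₁ : Subgroup G)
      · exact Sylow.ext (S₁.3 S₂.2 (e1 ▸ h2)).symm
      by_cases e2 : R = (S₂ : Subgroup G)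
      · exact (Sylow.ext (S₂.3 S₁.2 (e2 ▸ h1)).symm).symm
      exact (step S₁ h1 e1).trans (step S₂ h2 e2).symm
  obtain ⟨t₀, ht₀⟩ := exists_prime_orderOf_dvd_card' 2 hC.two_dvd
  obtain ⟨S, hzS⟩ := (IsPGroup.of_card (n := 1)
    (by rw [pow_one, Nat.card_zpowers, ht₀]) : IsPGroup 2 (Subgroup.zpowers t₀)).exists_le_sylow
  have hSne : (S : Subgroup G) ≠ ⊥ := fun e => by
    rw [e] at hzS
    have := Subgroup.mem_bot.1 (hzS (Subgroup.mem_zpowers t₀))
    rw [this, orderOf_one] at ht₀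
    omega
  obtain ⟨H, hH, hNH⟩ := exists_maxLoc_normalizer S.2 hSne
  obtain ⟨hallH, ⟨S', hS'⟩, hcases⟩ := hcore H hH
  have hSD : pCoreOf 2 H = (S : Subgroup G) :=
    S.3 (isPGroup_pCoreOf H) (hallH _ S.2 (Subgroup.le_normalizer.trans hNH))
  have hHeq : Subgroup.normalizer ((S : Subgroup G) : Set G) = H := by
    rw [← hSD, hH.normalizer_core]
  rw [hSD] at hcases hallH
  have hHtop : H ≠ ⊤ := hC.ne_top_of_isLoc hH.prop
  -- a conjugate meets `H` in a subgroup of odd order
  have hmeet : ∀ g : G, g ∉ H → ∀ R : Subgroup G, IsPGroup 2 R → R ≤ H →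
      R ≤ H.map (MulAut.conj g).toMonoidHom → R = ⊥ := by
    intro g hg R hR h1 h2
    by_contra hne
    have h3 : R ≤ ((g • S : Sylow 2 G) : Subgroup G) := by
      rw [Sylow.coe_subgroup_smul]
      intro a ha
      obtain ⟨b, hb, rfl⟩ := h2 ha
      refine ⟨b, ?_, rfl⟩
      have hb' : Subgroup.zpowers b ≤ (S : Subgroup G) := by
        refine hallH _ (IsPGroup.to_le (hR.map (MulAut.conj g⁻¹).toMonoidHom) ?_) (Subgroup.zpowers_le.2 hb)
        rw [Subgroup.zpowers_le]
        exact ⟨_, ha, by simp [mul_assoc]⟩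
      exact hb' (Subgroup.mem_zpowers b)
    have e := hTI (Nat.card G) S (g • S) R (hallH _ hR h1) h3 hne (Nat.le_add_right _ _)
    exact hg (hHeq ▸ (Sylow.smul_eq_iff_mem_normalizer.1 e.symm))
  have hSE : IsStronglyEmbedded H := by
    refine ⟨hHtop, ?_, fun g hg => ?_⟩
    · rw [even_iff_two_dvd]
      exact ht₀ ▸ Subgroup.orderOf_dvd_natCard H
        ((Subgroup.le_normalizer.trans hNH) (hzS (Subgroup.mem_zpowers t₀)))
    · refine Nat.not_even_iff_odd.1 fun he => ?_
      obtain ⟨⟨a, ha⟩, hao⟩ := exists_prime_orderOf_dvd_card'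
        (G := ↥(H ⊓ H.map (MulAut.conj g).toMonoidHom)) 2 he.two_dvd
      rw [Subgroup.orderOf_mk] at hao
      have h1 := hmeet g hg (Subgroup.zpowers a) (IsPGroup.of_card (n := 1)
        (by rw [pow_one, Nat.card_zpowers, hao])) (Subgroup.zpowers_le.2 ha.1) (Subgroup.zpowers_le.2 ha.2)
      rw [Subgroup.zpowers_eq_bot] at h1
      rw [h1, orderOf_one] at hao
      omega
  obtain ⟨q, x, hq, hq2, hxH, hxo, hcardH⟩ : ∃ q x, Nat.Prime q ∧ q ≠ 2 ∧ x ∈ H ∧ orderOf x = q ∧
      Nat.card H = Nat.card (S : Subgroup G) * q := by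
    refine hcases.resolve_left fun e => ?_
    -- otherwise a Frobenius complement
    have hFC : IsFrobeniusComplement (S : Subgroup G) := by
      refine ⟨hSne, e ▸ hHtop, fun g hg => ?_⟩
      by_contra hne
      rw [← e] at hg
      refine hne (hmeet g hg _ (S.2.to_le inf_le_left) (e ▸ inf_le_left) ?_)
      intro a ha
      obtain ⟨b, hb, rfl⟩ := (inf_le_right : _ ≤ MulAut.conj g • (S : Subgroup G)) ha
      exact ⟨b, e ▸ hb, rfl⟩
    obtain ⟨N, -, hN, hcomp⟩ := CfsgLib.Frobenius.exists_kernel hFC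
    have hNS := hcomp.card_mul
    rcases hN.eq_bot_or_eq_top with h | h
    · rw [h, Subgroup.card_bot, one_mul] at hNS
      exact hHtop (e ▸ Subgroup.eq_top_of_card_eq _ hNS)
    · rw [h, Subgroup.card_top] at hNS
      exact hSne (Subgroup.eq_bot_of_card_eq _ ((Nat.mul_eq_left Nat.card_pos.ne').1 hNS))
  have hSH : (S : Subgroup G) ≤ H := Subgroup.le_normalizer.trans hNH
  -- `z` and its centraliser
  obtain ⟨⟨z, hz⟩, hzne⟩ := Subgroup.ne_bot_iff_exists_ne_one.1 (omegaZ_ne_bot S.2 hSne)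
  have hzo : orderOf z = 2 :=
    orderOf_eq_prime (by rw [pow_two]; exact hz.2.1) (fun e => hzne (Subtype.ext e))
  have hCz : Subgroup.centralizer ({z} : Set G) = (S : Subgroup G) := by
    refine S.3 (hC.eo.isPGroup_centralizer (by rw [hzo])) fun g hg => ?_
    rw [Subgroup.mem_centralizer_singleton_iff]
    exact (hz.2.2 g hg).symm
  have hzH : z ∈ H := hSH hz.1
  have hconj : ∀ v : G, orderOf v = 2 → ∃ g : G, g * z * g⁻¹ = v := by
    intro v hv
    obtain ⟨P, hP⟩ := (IsPGroup.of_card (n := 1)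
      (by rw [pow_one, Nat.card_zpowers, hv]) : IsPGroup 2 (Subgroup.zpowers v)).exists_le_sylow
    obtain ⟨c, hc⟩ := MulAction.exists_smul_eq G S P
    have hvP := hP (Subgroup.mem_zpowers v)
    rw [← hc, Sylow.coe_subgroup_smul] at hvP
    obtain ⟨w, hw, rfl⟩ := hvP
    simp only [MulDistribMulAction.toMonoidEnd_apply] at hv ⊢
    have hw2 : orderOf w = 2 := by
      rw [← hv]; exact (orderOf_injective (MulAut.conj c).toMonoidHom (MulAut.conj c).injective w).symm
    obtain ⟨g, hg⟩ := isConj_iff.1 (isConj_involutions hC.simple hSE hzH (hSH hw) hzo hw2)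
    exact ⟨c * g, by rw [← hg]; simp [mul_assoc]⟩
  let fI : G ⧸ (S : Subgroup G) → {v : G // orderOf v = 2} :=
    Quotient.lift (fun g => ⟨g * z * g⁻¹, by rw [Involutions.orderOf_conj, hzo]⟩) fun a b hab => by
      refine Subtype.ext ?_
      have h1 : a⁻¹ * b ∈ (S : Subgroup G) := (QuotientGroup.leftRel_apply).1 hab
      rw [← hCz, Subgroup.mem_centralizer_singleton_iff] at h1
      show a * z * a⁻¹ = b * z * b⁻¹
      calc a * z * a⁻¹ = a * (z * (a⁻¹ * b)) * b⁻¹ := by group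
        _ = a * ((a⁻¹ * b) * z) * b⁻¹ := by rw [h1]
        _ = b * z * b⁻¹ := by group
  have fIeq : ∀ a b : G, a * z * a⁻¹ = b * z * b⁻¹ → a⁻¹ * b ∈ (S : Subgroup G) := by
    intro a b e
    rw [← hCz, Subgroup.mem_centralizer_singleton_iff]
    calc a⁻¹ * b * z = a⁻¹ * (b * z * b⁻¹) * b := by group
      _ = z * (a⁻¹ * b) := by rw [← e]; group
  have hIcard : Nat.card {v : G // orderOf v = 2} = (S : Subgroup G).index := by
    refine (Nat.card_eq_of_bijective fI ⟨fun a b => ?_, fun v => ?_⟩).symm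
    · refine Quotient.inductionOn₂ a b fun a b e => Quotient.sound ((QuotientGroup.leftRel_apply).2 ?_)
      exact fIeq a b (congrArg Subtype.val e)
    · obtain ⟨g, hg⟩ := hconj v v.2
      exact ⟨QuotientGroup.mk g, Subtype.ext hg⟩
  have hIH : Nat.card {v : G // orderOf v = 2 ∧ v ∈ H} = q := by
    have hrel : (S : Subgroup G).relIndex H = q := by
      have h1 := ((S : Subgroup G).subgroupOf H).index_mul_card
      rw [Nat.card_congr (Subgroup.subgroupOfEquivOfLe hSH).toEquiv, hcardH, mul_comm (Nat.card _) q] at h1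
      exact Nat.eq_of_mul_eq_mul_right Nat.card_pos h1
    rw [← hrel, Subgroup.relIndex, Subgroup.index]
    let g : H ⧸ (S : Subgroup G).subgroupOf H → {v : G // orderOf v = 2 ∧ v ∈ H} :=
      Quotient.lift (fun a => ⟨(a : G) * z * (a : G)⁻¹, by rw [Involutions.orderOf_conj, hzo],
        H.mul_mem (H.mul_mem a.2 hzH) (H.inv_mem a.2)⟩) fun a b hab => by
        refine Subtype.ext ?_
        exact (congrArg (fun v => ((fI v : {v : G // orderOf v = 2}) : G))
          (Quotient.sound ((QuotientGroup.leftRel_apply).2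
            (Subgroup.mem_subgroupOf.1 ((QuotientGroup.leftRel_apply).1 hab)))) :)
    refine (Nat.card_eq_of_bijective g ⟨fun a b => ?_, fun v => ?_⟩).symm
    · refine Quotient.inductionOn₂ a b fun a b e => Quotient.sound ((QuotientGroup.leftRel_apply).2 ?_)
      exact fIeq a b (congrArg Subtype.val e)
    · obtain ⟨c, hc⟩ := hconj v v.2.1
      exact ⟨QuotientGroup.mk ⟨c, Involutions.mem_of_conj_mem_of_stronglyEmbedded hSE hzH hzo (hc ▸ v.2.2)⟩,
        Subtype.ext hc⟩
  -- the action on the cosets of `H`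
  letI : Fintype (G ⧸ H) := Fintype.ofFinite _
  letI : Fintype G := Fintype.ofFinite _
  set ω₀ : G ⧸ H := QuotientGroup.mk 1 with hω₀
  have hfix0 : ∀ g : G, g • ω₀ = ω₀ ↔ g ∈ H := by
    intro g
    rw [hω₀]
    show (QuotientGroup.mk (g * 1) : G ⧸ H) = QuotientGroup.mk 1 ↔ g ∈ H
    rw [mul_one, QuotientGroup.eq, mul_one, inv_mem_iff]
  have hfix : ∀ t g : G, g • (t • ω₀) = t • ω₀ ↔ g ∈ H.map (MulAut.conj t).toMonoidHom := by
    intro t g
    rw [Involutions.mem_map_conj, ← hfix0, mul_smul, mul_smul, inv_smul_eq_iff]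
  have hinvH : ∀ t : G, orderOf t = 2 → ∀ a : G, a ∈ H.map (MulAut.conj t).toMonoidHom ↔ t * a * t ∈ H := by
    intro t ht a
    rw [Involutions.mem_map_conj, Involutions.inv_eq_self ht]
  have hKcard : ∀ t : G, t ∉ H → Nat.card ↥(H ⊓ H.map (MulAut.conj t).toMonoidHom) ∣ q := by
    intro t ht
    have h1 : Nat.card ↥(H ⊓ H.map (MulAut.conj t).toMonoidHom) ∣ Nat.card (S : Subgroup G) * q :=
      hcardH ▸ Subgroup.card_dvd_of_le inf_le_left
    obtain ⟨n, hn⟩ := IsPGroup.iff_card.1 S.2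
    refine Nat.Coprime.dvd_of_dvd_mul_left ?_ h1
    rw [hn]
    exact ((Nat.coprime_two_right.2 (hSE.2.2 t ht))).pow_right n
  let I' := {t : G // orderOf t = 2 ∧ t ∉ H}
  let Ω' := {ω : G ⧸ H // ω ≠ ω₀}
  let f : I' → Ω' := fun t => ⟨(t : G) • ω₀, fun e => t.2.2 ((hfix0 _).1 e)⟩
  have hfibmem : ∀ (ω : Ω') (t u : {t : I' // f t = ω}),
      ((t : I') : G) * ((u : I') : G) ∈ H ⊓ H.map (MulAut.conj ((t : I') : G)).toMonoidHom := by
    intro ω t u
    have e : ((t : I') : G) • ω₀ = ((u : I') : G) • ω₀ :=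
      congrArg Subtype.val (t.2.trans u.2.symm)
    have ht2 := Involutions.mul_self_eq_one (t : I').2.1
    have h1 : ((t : I') : G) * ((u : I') : G) ∈ H := by
      rw [← hfix0, mul_smul, ← e, ← mul_smul, ht2, one_smul]
    refine ⟨h1, (hinvH _ (t : I').2.1 _).2 ?_⟩
    rw [← mul_assoc, ht2, one_mul]
    have := H.inv_mem h1
    rwa [mul_inv_rev, Involutions.inv_eq_self (t : I').2.1, Involutions.inv_eq_self (u : I').2.1] at this
  have hfibinj : ∀ (ω : Ω') (t : {t : I' // f t = ω}), Function.Injective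
      (fun u : {t : I' // f t = ω} => (⟨_, hfibmem ω t u⟩ :
        ↥(H ⊓ H.map (MulAut.conj ((t : I') : G)).toMonoidHom))) := by
    intro ω t a b e
    exact Subtype.ext (Subtype.ext (mul_left_cancel (congrArg Subtype.val e :)))
  have hfib : ∀ ω : Ω', Nat.card {t : I' // f t = ω} ≤ q := by
    intro ω
    rcases isEmpty_or_nonempty {t : I' // f t = ω} with he | ⟨⟨t⟩⟩
    · rw [Nat.card_of_isEmpty]; exact Nat.zero_le _
    · exact (Nat.card_le_card_of_injective _ (hfibinj ω t)).trans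
        (Nat.le_of_dvd hq.pos (hKcard _ (t : I').2.2))
  have hI'card : Nat.card I' = q * Nat.card Ω' := by
    have h1 : Nat.card {v : G // orderOf v = 2} = Nat.card I' + q := by
      rw [← hIH, ← Nat.card_sum]
      refine Nat.card_congr ?_
      exact { toFun := fun v => if hv : (v : G) ∈ H then Sum.inr ⟨v, v.2, hv⟩ else Sum.inl ⟨v, v.2, hv⟩
              invFun := Sum.elim (fun v => ⟨v, v.2.1⟩) (fun v => ⟨v, v.2.1⟩)
              left_inv := fun v => by by_cases hv : (v : G) ∈ H <;> simp [hv]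
              right_inv := fun v => by rcases v with ⟨v, hv⟩ | ⟨v, hv⟩ <;> simp [hv.2] }
    have h2 : Nat.card Ω' + 1 = H.index := by
      rw [Subgroup.index, Nat.card_eq_fintype_card, Nat.card_eq_fintype_card, Fintype.card_subtype_compl,
        Fintype.card_subtype_eq]
      have := Fintype.card_pos_iff.2 ⟨ω₀⟩
      omega
    have h3 : (S : Subgroup G).index = q * H.index := by
      have h4 := Subgroup.relIndex_mul_index hSH
      have h5 := ((S : Subgroup G).subgroupOf H).index_mul_card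
      rw [Nat.card_congr (Subgroup.subgroupOfEquivOfLe hSH).toEquiv, hcardH, mul_comm (Nat.card _) q] at h5
      rw [← h4, Subgroup.relIndex, Nat.eq_of_mul_eq_mul_right Nat.card_pos h5]
    rw [hIcard, h3, ← h2, mul_add, mul_one] at h1
    omega
  have hfull : ∀ ω : Ω', Nat.card {t : I' // f t = ω} = q := by
    have h1 : ∑ ω : Ω', Nat.card {t : I' // f t = ω} = ∑ _ω : Ω', q := by
      rw [← Nat.card_sigma, Finset.sum_const, Finset.card_univ, smul_eq_mul, ← Nat.card_eq_fintype_card,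
        mul_comm, ← hI'card]
      exact Nat.card_congr (Equiv.sigmaFiberEquiv f)
    exact fun ω => (Finset.sum_eq_sum_iff_of_le fun ω _ => hfib ω).1 h1 ω (Finset.mem_univ _)
  -- every other point is reached by an involution inverting the two-point stabiliser
  have hpoint : ∀ ω : G ⧸ H, ω ≠ ω₀ → ∃ t : G, orderOf t = 2 ∧ t • ω₀ = ω ∧
      Nat.card ↥(H ⊓ H.map (MulAut.conj t).toMonoidHom) = q ∧
      ∀ a ∈ H, a • ω = ω → t * a * t = a⁻¹ := by
    intro ω hω
    have hc := hfull ⟨ω, hω⟩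
    have : Nonempty {t : I' // f t = ⟨ω, hω⟩} := (Nat.card_pos_iff.1 (hc ▸ hq.pos)).1
    obtain ⟨t⟩ := this
    have htω : ((t : I') : G) • ω₀ = ω := congrArg Subtype.val t.2
    have hinj := hfibinj ⟨ω, hω⟩ t
    have hle := Nat.card_le_card_of_injective _ hinj
    rw [hc] at hle
    have hdq := hKcard _ (t : I').2.2
    have hKq : Nat.card ↥(H ⊓ H.map (MulAut.conj ((t : I') : G)).toMonoidHom) = q :=
      le_antisymm (Nat.le_of_dvd hq.pos hdq) hle
    refine ⟨_, (t : I').2.1, htω, hKq, fun a ha hfa => ?_⟩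
    have hbij := hinj.bijective_of_nat_card_le (by rw [hKq, hc])
    obtain ⟨u, hu⟩ := hbij.2 ⟨a, ha, (hfix _ a).1 (by rw [htω]; exact hfa)⟩
    have hu' : ((t : I') : G) * ((u : I') : G) = a := congrArg Subtype.val hu
    have ht2 := Involutions.mul_self_eq_one (t : I').2.1
    rw [← hu', mul_inv_rev, Involutions.inv_eq_self (t : I').2.1, Involutions.inv_eq_self (u : I').2.1,
      ← mul_assoc ((t : I') : G), ht2, one_mul]
  -- elements of `H` fixing another point have order `q`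
  have horder : ∀ a ∈ H, ∀ ω : G ⧸ H, ω ≠ ω₀ → a • ω = ω → a ≠ 1 → orderOf a = q := by
    intro a ha ω hω hfa ha1
    obtain ⟨t, -, htω, hK, -⟩ := hpoint ω hω
    have h1 := Subgroup.orderOf_dvd_natCard (s := H ⊓ H.map (MulAut.conj t).toMonoidHom) (x := a)
      ⟨ha, (hfix t a).1 (by rw [htω]; exact hfa)⟩
    rw [hK] at h1
    exact ((Nat.dvd_prime hq).1 h1).resolve_left fun e => ha1 (orderOf_eq_one_iff.1 e)
  -- no element of `H` inverts an element of order `q`
  have hnoinv : ∀ h ∈ H, ∀ a ∈ H, orderOf a = q → h * a * h⁻¹ = a⁻¹ → False := by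
    intro h hh a ha hao hha
    have ha2 : a * a ≠ 1 := fun e => by
      have h1 := Nat.le_of_dvd two_pos (orderOf_dvd_of_pow_eq_one (show a ^ 2 = 1 by rwa [pow_two]))
      have h2 := hq.two_le
      omega
    by_cases h1 : h = 1
    · subst h1
      simp only [one_mul, inv_one, mul_one] at hha
      exact ha2 (mul_eq_one_iff_eq_inv.2 hha)
    rcases hC.eo h h1 with ⟨n, hn⟩ | ⟨hp, -⟩
    · have hhS : h ∈ (S : Subgroup G) := hallH _ (IsPGroup.of_card (n := n)
        (by rw [Nat.card_zpowers, hn])) (Subgroup.zpowers_le.2 hh) (Subgroup.mem_zpowers h)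
      have h2 : h * a * h⁻¹ * a⁻¹ ∈ (S : Subgroup G) := by
        have := (S : Subgroup G).mul_mem hhS
          ((Subgroup.mem_normalizer_iff.1 (hHeq.symm ▸ ha) h⁻¹).1 ((S : Subgroup G).inv_mem hhS))
        simpa [mul_assoc] using this
      rw [hha, ← mul_inv_rev] at h2
      have h3 : orderOf (a * a) = q := orderOf_eq_prime (hp := ⟨hq⟩) (by
        rw [← pow_two, ← pow_mul, mul_comm, pow_mul, ← hao, pow_orderOf_eq_one, one_pow]) ha2
      obtain ⟨j, hj⟩ := (IsPGroup.iff_orderOf.1 S.2) ⟨a * a, by simpa using (S : Subgroup G).inv_mem h2⟩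
      rw [Subgroup.orderOf_mk, h3] at hj
      exact hq2 ((Nat.prime_dvd_prime_iff_eq hq Nat.prime_two).1 (hq.dvd_of_dvd_pow (dvd_of_eq hj)))
    · by_cases hp2 : orderOf h = 2
      · have hhS : h ∈ (S : Subgroup G) := hallH _ (IsPGroup.of_card (n := 1)
          (by rw [Nat.card_zpowers, hp2, pow_one])) (Subgroup.zpowers_le.2 hh) (Subgroup.mem_zpowers h)
        have h2 : h * a * h⁻¹ * a⁻¹ ∈ (S : Subgroup G) := by
          have := (S : Subgroup G).mul_mem hhS
            ((Subgroup.mem_normalizer_iff.1 (hHeq.symm ▸ ha) h⁻¹).1 ((S : Subgroup G).inv_mem hhS))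
          simpa [mul_assoc] using this
        rw [hha, ← mul_inv_rev] at h2
        have h3 : orderOf (a * a) = q := orderOf_eq_prime (hp := ⟨hq⟩) (by
          rw [← pow_two, ← pow_mul, mul_comm, pow_mul, ← hao, pow_orderOf_eq_one, one_pow]) ha2
        obtain ⟨j, hj⟩ := (IsPGroup.iff_orderOf.1 S.2) ⟨a * a, by simpa using (S : Subgroup G).inv_mem h2⟩
        rw [Subgroup.orderOf_mk, h3] at hj
        exact hq2 ((Nat.prime_dvd_prime_iff_eq hq Nat.prime_two).1 (hq.dvd_of_dvd_pow (dvd_of_eq hj)))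
      · -- `h` is a power of `h²`
        have hcomm : Commute (h ^ 2) a := by
          show h ^ 2 * a = a * h ^ 2
          calc h ^ 2 * a = h * (h * a * h⁻¹) * h⁻¹ * h ^ 2 := by simp [pow_two, mul_assoc]
            _ = h * a⁻¹ * h⁻¹ * h ^ 2 := by rw [hha]
            _ = a * h ^ 2 := by
              rw [show h * a⁻¹ * h⁻¹ = (h * a * h⁻¹)⁻¹ by group, hha, inv_inv]
        obtain ⟨j, hj⟩ := hp.odd_of_ne_two hp2
        have e : (h ^ 2) ^ (j + 1) = h := by
          rw [← pow_mul, show 2 * (j + 1) = orderOf h + 1 by omega, pow_succ, pow_orderOf_eq_one, one_mul]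
        have := hcomm.pow_left (j + 1)
        rw [e] at this
        rw [this.eq, mul_inv_cancel_right] at hha
        exact ha2 (mul_eq_one_iff_eq_inv.2 hha)
  -- at most two points are fixed
  have hthree : ∀ a ∈ H, a ≠ 1 → ∀ ω ω' : G ⧸ H, ω ≠ ω₀ → ω' ≠ ω₀ → a • ω = ω → a • ω' = ω' →
      ω = ω' := by
    intro a ha ha1 ω ω' hω hω' hfa hfa'
    obtain ⟨t, ht2, htω, -, htinv⟩ := hpoint ω hω
    obtain ⟨t', ht'2, ht'ω, -, ht'inv⟩ := hpoint ω' hω'
    have hao := horder a ha ω hω hfa ha1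
    set c := t * t' with hc
    have hca : c * a = a * c := by
      have e1 := ht'inv a ha hfa'
      have e2 := htinv a ha hfa
      have t1 := Involutions.mul_self_eq_one ht2
      have t2 := Involutions.mul_self_eq_one ht'2
      calc c * a = t * (t' * a * t') * t' := by rw [hc]; simp [mul_assoc, t2]
        _ = t * a⁻¹ * t' := by rw [e1]
        _ = t * (t * a * t) * t' := by rw [e2]
        _ = a * c := by rw [hc]; simp [← mul_assoc, t1]
    have hcfix : c • ω₀ = ω₀ := by
      by_contra hne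
      have hfa'' : a • (c • ω₀) = c • ω₀ := by
        rw [← mul_smul, ← hca, mul_smul, (hfix0 a).2 ha]
      obtain ⟨u, hu2, huω, -, huinv⟩ := hpoint _ hne
      have hh : u * c ∈ H := by
        rw [← hfix0, mul_smul, ← huω, ← mul_smul, Involutions.mul_self_eq_one hu2, one_smul]
      refine hnoinv _ hh a ha hao ?_
      rw [← huinv a ha hfa'', mul_inv_rev, Involutions.inv_eq_self hu2]
      calc u * c * a * (c⁻¹ * u) = u * (c * a) * c⁻¹ * u := by group
        _ = u * a * u := by rw [hca]; group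
    rw [hc, mul_smul, ht'ω] at hcfix
    have h1 := congrArg (fun y => t • y) hcfix
    simp only [← mul_smul, Involutions.mul_self_eq_one ht2, one_smul] at h1
    rw [h1, ← htω]
  -- transitivity on the other points
  have htrans : ∀ ω ω' : G ⧸ H, ω ≠ ω₀ → ω' ≠ ω₀ → ∃ g ∈ H, g • ω = ω' := by
    intro ω ω' hω hω'
    have : Fact q.Prime := ⟨hq⟩
    obtain ⟨t, -, htω, hK, -⟩ := hpoint ω hω
    obtain ⟨t', -, ht'ω, hK', -⟩ := hpoint ω' hω'
    have syl : ∀ u : G, Nat.card ↥(H ⊓ H.map (MulAut.conj u).toMonoidHom) = q →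
        ∃ P : Sylow q H, (P : Subgroup H) = (H ⊓ H.map (MulAut.conj u).toMonoidHom).subgroupOf H := by
      intro u hu
      have hp : IsPGroup q ((H ⊓ H.map (MulAut.conj u).toMonoidHom).subgroupOf H) :=
        IsPGroup.of_card (n := 1)
          (by rw [Nat.card_congr (Subgroup.subgroupOfEquivOfLe inf_le_left).toEquiv, hu, pow_one])
      obtain ⟨P, hP⟩ := hp.exists_le_sylow
      refine ⟨P, (Subgroup.eq_of_le_of_card_ge hP ?_).symm⟩
      rw [Nat.card_congr (Subgroup.subgroupOfEquivOfLe inf_le_left).toEquiv, hu, P.card_eq_multiplicity]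
      obtain ⟨n, hn⟩ := IsPGroup.iff_card.1 S.2
      rw [hcardH, hn, Nat.factorization_mul (pow_ne_zero n two_ne_zero) hq.ne_zero, Finsupp.add_apply,
        Nat.Prime.factorization_pow Nat.prime_two, hq.factorization, Finsupp.single_eq_same,
        Finsupp.single_eq_of_ne hq2, zero_add, pow_one]
    obtain ⟨P, hP⟩ := syl t hK
    obtain ⟨P', hP'⟩ := syl t' hK'
    obtain ⟨g, hg⟩ := MulAction.exists_smul_eq H P P'
    refine ⟨g, g.2, ?_⟩
    obtain ⟨⟨a, ha⟩, hane⟩ : ∃ a : ↥(H ⊓ H.map (MulAut.conj t).toMonoidHom), a ≠ 1 := by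
      refine Subgroup.ne_bot_iff_exists_ne_one.1 fun e => ?_
      rw [e, Subgroup.card_bot] at hK
      exact hq.one_lt.ne hK
    have ha1 : a ≠ 1 := fun e => hane (Subtype.ext e)
    have hb : (g : G) * a * (g : G)⁻¹ ∈ H ⊓ H.map (MulAut.conj t').toMonoidHom := by
      have h1 : (⟨a, ha.1⟩ : H) ∈ (P : Subgroup H) := by rw [hP]; exact ha
      have h2 : g * ⟨a, ha.1⟩ * g⁻¹ ∈ (P' : Subgroup H) := by
        rw [← hg, Sylow.coe_subgroup_smul]
        exact ⟨_, h1, rfl⟩
      rw [hP'] at h2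
      exact h2
    have hb1 : (g : G) * a * (g : G)⁻¹ ≠ 1 := fun e => ha1 (conj_eq_one_iff.1 e)
    refine hthree _ hb.1 hb1 _ _ ?_ hω' ?_ ?_
    · intro e
      rw [smul_eq_iff_eq_inv_smul, (hfix0 _).2 (H.inv_mem g.2)] at e
      exact hω e
    · rw [← mul_smul, show (g : G) * a * (g : G)⁻¹ * g = g * a by group, mul_smul, ← htω,
        (hfix t a).2 ha.2]
    · rw [← ht'ω]
      exact (hfix t' _).2 hb.2
  have hΩ' : ∃ ω : G ⧸ H, ω ≠ ω₀ := by
    obtain ⟨g, hg⟩ := Set.ne_univ_iff_exists_notMem (s := (H : Set G)) |>.1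
      (fun e => hHtop (by rw [← Subgroup.coe_eq_univ]; exact e))
    exact ⟨g • ω₀, fun e => hg ((hfix0 g).1 e)⟩
  have hpre : ∀ ω : G ⧸ H, ∃ g : G, g • ω₀ = ω := fun ω =>
    MulAction.exists_smul_eq G ω₀ ω
  have hfaith : FaithfulSMul G (G ⧸ H) := by
    refine ⟨fun {g₁ g₂} h12 => ?_⟩
    have hk : (MulAction.toPermHom G (G ⧸ H)).ker = ⊥ := by
      rcases (MonoidHom.normal_ker (MulAction.toPermHom G (G ⧸ H))).eq_bot_or_eq_top with e | e
      · exact e
      · refine absurd (top_le_iff.1 ?_) hHtop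
        rw [← e]
        intro g hg
        exact (hfix0 g).1 (congrArg (fun p : Equiv.Perm (G ⧸ H) => p ω₀) (MonoidHom.mem_ker.1 hg))
    refine (MonoidHom.ker_eq_bot_iff _).1 hk (Equiv.ext fun y => ?_)
    exact h12 y
  obtain ⟨ω₁, hω₁⟩ := hΩ'
  have hZ : IsZassenhausGroup G (G ⧸ H) := by
    refine ⟨hfaith, ?_, ?_, ?_, ?_⟩
    · rw [MulAction.is_two_pretransitive_iff]
      intro a b c d hab hcd
      obtain ⟨g, rfl⟩ := hpre a
      obtain ⟨g', rfl⟩ := hpre c
      obtain ⟨e, he, hee⟩ := htrans (g⁻¹ • b) (g'⁻¹ • d)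
        (fun h => hab (by rw [← h, smul_inv_smul]))
        (fun h => hcd (by rw [← h, smul_inv_smul]))
      refine ⟨g' * e * g⁻¹, ?_, ?_⟩
      · rw [mul_smul, mul_smul, inv_smul_smul, (hfix0 e).2 he]
      · rw [mul_smul, mul_smul, hee, smul_inv_smul]
    · intro g a b c hab hbc hac ha hb hc
      obtain ⟨u, rfl⟩ := hpre a
      by_contra hg
      have hmem : u⁻¹ * g * u ∈ H := by rw [← hfix0, mul_smul, mul_smul, ha, inv_smul_smul]
      refine hbc ?_
      have := hthree _ hmem (fun e => hg (by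
          calc g = u * (u⁻¹ * g * u) * u⁻¹ := by group
            _ = 1 := by rw [e]; group)) (u⁻¹ • b) (u⁻¹ • c)
        (fun h => hab (by rw [← h, smul_inv_smul])) (fun h => hac (by rw [← h, smul_inv_smul]))
        (by rw [mul_smul, mul_smul, smul_inv_smul, hb]) (by rw [mul_smul, mul_smul, smul_inv_smul, hc])
      exact smul_left_cancel _ this
    · obtain ⟨t, -, htω, hK, -⟩ := hpoint ω₁ hω₁
      obtain ⟨⟨a, ha⟩, hane⟩ : ∃ a : ↥(H ⊓ H.map (MulAut.conj t).toMonoidHom), a ≠ 1 := by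
        refine Subgroup.ne_bot_iff_exists_ne_one.1 fun e => ?_
        rw [e, Subgroup.card_bot] at hK
        exact hq.one_lt.ne hK
      exact ⟨a, fun e => hane (Subtype.ext e), ω₀, ω₁, Ne.symm hω₁, (hfix0 a).2 ha.1,
        htω ▸ (hfix t a).2 ha.2⟩
    · intro N hN hNt
      refine ⟨ω₀, fun e => ?_⟩
      rcases hN.eq_bot_or_eq_top with h | h
      · subst h
        obtain ⟨⟨g, hg⟩, hgω⟩ := hNt.exists_smul_eq ω₀ ω₁
        rw [Subgroup.mem_bot] at hg
        subst hg
        exact hω₁ (hgω.symm.trans (one_smul G ω₀))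
      · have h1 : (⟨z, h ▸ Subgroup.mem_top z⟩ : N) ∈ MulAction.stabilizer N ω₀ :=
          (hfix0 z).2 hzH
        have h2 := Subgroup.mem_bot.1 (e.le h1)
        exact hzne (Subtype.ext (congrArg Subtype.val h2 :))
  exact Cfsg.Agent.S0340.result hZ

end CfsgLib.PrimeElementOrders
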