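import Cfsg.Agent.Lib.PrimeElementOrders.Dichotomy
import Cfsg.Agent.Lib.PrimeElementOrders.Dihedral
import Cfsg.Agent.Lib.PrimeElementOrders.TICase
import Cfsg.Agent.Lib.PrimeElementOrders.PSLOrders
import Cfsg.Agent.Lib.BGTypes.CNQuotient
import Cfsg.Agent.Lib.SmallGroups.Order168
import Cfsg.Agent.Lib.ClassicalLinear.Simple
import Cfsg.Agent.Lib.ClassicalLinear.BlockHom

/-!
A group with three prime divisors and all element orders powers of two or primes other than five is
`PSL₂(7)`.
-/

set_option autoImplicit false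

open Cfsg
open scoped Pointwise

universe u

namespace CfsgLib.PrimeElementOrders

instance fact_prime_seven : Fact (Nat.Prime 7) := ⟨by norm_num⟩

/-- The model `PSL₂(7)`. -/
abbrev P7 : Type := Matrix.ProjectiveSpecialLinearGroup (Fin 2) (ZMod 7)

theorem card_P7 : Nat.card P7 = 168 := by
  have := CfsgLib.ClassicalLinear.card_PSL_two_of_odd (F := ZMod 7) (ZMod.card 7) (by decide)
  exact Nat.eq_of_mul_eq_mul_left two_pos (this.trans (by norm_num))

theorem simple_P7 : IsSimpleGroup P7 :=
  CfsgLib.ClassicalLinear.isSimpleGroup_psl_fin le_rfl fun _ => by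
    rw [Nat.card_eq_fintype_card, ZMod.card]; norm_num

variable {G : Type u} [Group G] [Finite G]

/-- The simple case. -/
theorem equiv_P7_of_simple (hEO : EO G) (h3 : 3 ≤ (Nat.card G).primeFactors.card)
    (hsimple : IsSimpleGroup G)
    (ih : ∀ H : Subgroup G, H ≠ ⊤ → 3 ≤ (Nat.card H).primeFactors.card → Nonempty (H ≃* P7)) :
    Nonempty (G ≃* P7) := by
  classical
  have hns : ¬ Group.IsSolvable G := fun hs => by
    have := hEO.primeFactors_le_of_solvable
    omega
  have two_group : ∀ {X : Type u} [Group X] [Finite X], IsPGroup 2 X →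
      (Nat.card X).primeFactors.card ≤ 1 := by
    intro X _ _ hX
    obtain ⟨n, hn⟩ := IsPGroup.iff_card.1 hX
    rcases n with _ | n
    · simp [hn]
    · rw [hn, Nat.primeFactors_prime_pow (Nat.succ_ne_zero n) Nat.prime_two, Finset.card_singleton]
  have hC : Ctx G := ⟨hEO, hsimple, hns, fun T hT hne => by
    by_contra hcard
    have hN : Subgroup.normalizer (T : Set G) ≠ ⊤ := fun e => by
      rcases (Subgroup.normalizer_eq_top_iff.1 e).eq_bot_or_eq_top with h | h
      · exact hne h
      · subst h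
        have := two_group (X := G) (hT.of_equiv Subgroup.topEquiv)
        omega
    obtain ⟨e⟩ := ih _ hN (by omega)
    have : IsSimpleGroup (Subgroup.normalizer (T : Set G)) := by
      have := simple_P7
      have := e.toEquiv.nontrivial
      exact IsSimpleGroup.isSimpleGroup_of_surjective e.symm.toMonoidHom e.symm.surjective
    have hn : (T.subgroupOf (Subgroup.normalizer (T : Set G))).Normal :=
      Subgroup.normal_subgroupOf_of_le_normalizer le_rfl
    rcases hn.eq_bot_or_eq_top with h | h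
    · exact hne (by
        rw [Subgroup.subgroupOf_eq_bot, disjoint_iff, inf_eq_left.2 Subgroup.le_normalizer] at h
        exact h)
    · have := two_group (X := Subgroup.normalizer (T : Set G))
        (hT.to_le (Subgroup.subgroupOf_eq_top.1 h))
      omega⟩
  have hpsl : ∀ (F : Type) (_ : Field F) (_ : Fintype F),
      Nonempty (G ≃* Matrix.ProjectiveSpecialLinearGroup (Fin 2) F) → Nonempty (G ≃* P7) := by
    intro F _ _ ⟨e⟩
    have h7 : Fintype.card F = 7 := card_eq_seven
      (hEO.of_injective e.symm.toMonoidHom e.symm.injective) (Nat.card_congr e.toEquiv ▸ h3)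
    exact ⟨e.trans (CfsgLib.ClassicalLinear.pslCongr
      (FiniteField.ringEquivOfCardEq (show Fintype.card F = Fintype.card (ZMod 7) by rw [h7, ZMod.card])))⟩
  rcases hC.dichotomy with ⟨M, x, s, T, k, h, h4⟩ | hno
  · obtain ⟨F, i1, i2, -, he⟩ := hC.exists_psl_of_four h h4
    exact hpsl F i1 i2 he
  rcases hC.psl_or_suzuki hno with ⟨F, i1, i2, he⟩ | ⟨-, m, -, hcard⟩
  · exact hpsl F i1 i2 he
  · refine absurd ?_ hEO.five_not_dvd
    rw [hcard]
    refine dvd_mul_of_dvd_left (dvd_mul_of_dvd_right ?_ _) _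
    have : 4 ^ (2 * m + 1) % 5 = 4 := by
      rw [pow_add, pow_mul, Nat.mul_mod, Nat.pow_mod]; norm_num
    rw [← pow_mul, mul_comm (2 * m + 1) 2, pow_mul, show (2 : ℕ) ^ 2 = 4 by norm_num]
    exact Nat.dvd_of_mod_eq_zero (by rw [Nat.add_mod, this])

/-- A minimal normal `PSL₂(7)` is the whole group. -/
theorem eq_top_of_P7 (hEO : EO G) {N : Subgroup G} [N.Normal] (e : N ≃* P7) : N = ⊤ := by
  classical
  have hsimp : IsSimpleGroup N := by
    have := simple_P7
    have := e.toEquiv.nontrivial
    exact IsSimpleGroup.isSimpleGroup_of_surjective e.symm.toMonoidHom e.symm.surjective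
  have hcardN : Nat.card N = 168 := (Nat.card_congr e.toEquiv).trans card_P7
  have : Fact (Nat.Prime 3) := ⟨Nat.prime_three⟩
  have : Fact (Nat.Prime 2) := ⟨Nat.prime_two⟩
  obtain ⟨n₂, hn₂⟩ := exists_prime_orderOf_dvd_card' (G := N) 2 (by rw [hcardN]; norm_num)
  obtain ⟨n₃, hn₃⟩ := exists_prime_orderOf_dvd_card' (G := N) 3 (by rw [hcardN]; norm_num)
  -- the centraliser is trivial
  have hcent : ∀ c : G, (∀ n ∈ N, Commute c n) → c = 1 := by
    intro c hc
    by_contra h1
    obtain ⟨p, hp, hd⟩ := Nat.exists_prime_and_dvd (show orderOf c ≠ 1 by simpa using h1)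
    by_cases h2 : p = 2
    · exact hEO.not_commute hp Nat.prime_three (by omega) hd
        (by rw [← hn₃, Subgroup.orderOf_coe]) (hc _ n₃.2)
    · exact hEO.not_commute hp Nat.prime_two h2 hd (by rw [← hn₂, Subgroup.orderOf_coe]) (hc _ n₂.2)
  -- the action on the Sylow 7-subgroups of `N`
  obtain ⟨h8, hsyl⟩ := CfsgLib.SmallGroups.Order168.sylow_seven (G := N) hcardN
  let α : G →* MulAut N := MulAut.conjNormal
  let ρ : G →* Equiv.Perm (Sylow 7 N) := (MulAction.toPermHom (MulAut N) (Sylow 7 N)).comp α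
  have hker : ρ.ker = ⊥ := by
    set K := ρ.ker with hK
    have hfixall : ∀ k ∈ K, ∀ P : Sylow 7 N, α k • P = P := fun k hk P =>
      congrArg (fun f : Equiv.Perm (Sylow 7 N) => f P) (MonoidHom.mem_ker.1 hk)
    have hKN : K ⊓ N = ⊥ := by
      have hn : ((K ⊓ N).subgroupOf N).Normal := inferInstance
      rcases hn.eq_bot_or_eq_top with h | h
      · rw [Subgroup.subgroupOf_eq_bot, disjoint_iff] at h
        simpa [inf_assoc] using h
      · exfalso
        have hNK : N ≤ K := (Subgroup.subgroupOf_eq_top.1 h).trans inf_le_left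
        let P : Sylow 7 N := default
        obtain ⟨P', hP'⟩ : ∃ P' : Sylow 7 N, P' ≠ P := by
          by_contra! hall
          have : Subsingleton (Sylow 7 N) := ⟨fun a b => (hall a).trans (hall b).symm⟩
          have := Finite.card_le_one_iff_subsingleton.2 this
          omega
        obtain ⟨g, hg⟩ := MulAction.exists_smul_eq N P P'
        apply hP'
        rw [← hg]
        have h1 := hfixall _ (hNK g.2) P
        refine Sylow.ext ?_
        have h2 := congrArg (fun Q : Sylow 7 N => (Q : Subgroup N)) h1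
        rw [Sylow.coe_subgroup_smul]
        refine Eq.trans ?_ h2
        show _ = α (g : G) • (P : Subgroup N)
        congr 1
        exact MulEquiv.ext fun x => Subtype.ext (by simp [α])
    rw [Subgroup.eq_bot_iff_forall]
    intro k hk
    refine hcent k fun n hn => ?_
    have h1 : k * n * k⁻¹ * n⁻¹ ∈ K ⊓ N := by
      refine ⟨?_, ?_⟩
      · have := (MonoidHom.normal_ker ρ).conj_mem _ (K.inv_mem hk) n
        simpa [mul_assoc] using K.mul_mem hk this
      · exact N.mul_mem ((inferInstance : N.Normal).conj_mem _ hn _) (N.inv_mem hn)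
    rw [hKN, Subgroup.mem_bot, mul_inv_eq_one, mul_inv_eq_iff_eq_mul] at h1
    exact h1
  have hdvd : Nat.card G ∣ Nat.factorial 8 := by
    rw [← h8, ← Nat.card_perm]
    exact Subgroup.card_dvd_of_injective _ ((MonoidHom.ker_eq_bot_iff _).1 hker)
  -- a Sylow subgroup of `N` and its normaliser
  let P : Sylow 7 N := default
  set Q : Subgroup G := (P : Subgroup N).map N.subtype with hQdef
  set X := Subgroup.normalizer (Q : Set G) with hX
  have hQN : Q ≤ N := Subgroup.map_subtype_le _
  have hPcard : Nat.card Q = 7 := by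
    rw [hQdef, Subgroup.card_map_of_injective N.subtype_injective, P.card_eq_multiplicity, hcardN,
      show 168 = 7 * 24 by norm_num, Nat.factorization_mul (by norm_num) (by norm_num), Finsupp.add_apply,
      (by norm_num : Nat.Prime 7).factorization, Finsupp.single_eq_same,
      Nat.factorization_eq_zero_of_not_dvd (by norm_num : ¬ 7 ∣ 24)]
    rfl
  have hFr : X ⊔ N = ⊤ := Sylow.normalizer_sup_eq_top P
  obtain ⟨a, ha⟩ := exists_prime_orderOf_dvd_card' (G := Q) 7 (by rw [hPcard])
  have hQz : ∀ b ∈ Q, b ∈ Subgroup.zpowers (a : G) := by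
    intro b hb
    have : Subgroup.zpowers (a : G) = Q := Subgroup.eq_of_le_of_card_ge (Subgroup.zpowers_le.2 a.2)
      (by rw [hPcard, Nat.card_zpowers, Subgroup.orderOf_coe, ha])
    rwa [this]
  let α' : X →* MulAut Q := Subgroup.normalizerMonoidHom Q
  have hC7 : Nat.card α'.ker = 7 := by
    have h1 : IsPGroup 7 α'.ker := by
      intro c
      have hc : Commute ((c : X) : G) a := by
        have := congrArg Subtype.val (DFunLike.congr_fun (MonoidHom.mem_ker.1 c.2) a)
        exact mul_inv_eq_iff_eq_mul.1 this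
      refine ⟨1, ?_⟩
      by_cases h1 : ((c : X) : G) = 1
      · exact Subtype.ext (Subtype.ext (by simp [h1]))
      · obtain ⟨p, hp, hd⟩ := Nat.exists_prime_and_dvd (show orderOf ((c : X) : G) ≠ 1 from fun h => h1 (orderOf_eq_one_iff.1 h))
        have hp7 : p = 7 := by
          by_contra hne
          exact hEO.not_commute hp (by norm_num) hne hd (by rw [Subgroup.orderOf_coe, ha]) hc
        subst hp7
        have h7 := hEO.orderOf_eq hp (by norm_num) hd
        refine Subtype.ext (Subtype.ext ?_)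
        simp only [SubgroupClass.coe_pow, pow_one, OneMemClass.coe_one]
        rw [← h7, pow_orderOf_eq_one]
    obtain ⟨n, hn⟩ := IsPGroup.iff_card.1 h1
    have h2 : 7 ^ n ∣ Nat.factorial 8 :=
      hn ▸ ((Subgroup.card_subgroup_dvd_card α'.ker).trans ((Subgroup.card_subgroup_dvd_card X).trans hdvd))
    have h3 : 7 ∣ 7 ^ n := by
      rw [← hn, ← hPcard]
      refine (Nat.card_congr (Subgroup.subgroupOfEquivOfLe (show Q ≤ X from Subgroup.le_normalizer)).toEquiv).symm ▸
        Subgroup.card_dvd_of_le ?_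
      intro b hb
      rw [MonoidHom.mem_ker]
      refine MulEquiv.ext fun c => Subtype.ext ?_
      show (b : G) * c * (b : G)⁻¹ = c
      obtain ⟨i, hi⟩ := Subgroup.mem_zpowers_iff.1 (hQz _ hb)
      obtain ⟨j, hj⟩ := Subgroup.mem_zpowers_iff.1 (hQz _ c.2)
      rw [show ((b : X) : G) = (a : G) ^ i from hi.symm, ← hj]
      group
    rcases n with _ | _ | n
    · norm_num at h3
    · rw [hn, pow_one]
    · exact absurd ((pow_dvd_pow 7 (Nat.le_add_left 2 n)).trans h2) (by decide)
  have hcardX : Nat.card X = 7 * Nat.card α'.range := by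
    rw [← hC7, ← Subgroup.index_ker, Subgroup.card_mul_index]
  have haut : Nat.card (MulAut Q) = 6 := by
    have : IsCyclic Q := isCyclic_of_prime_card hPcard
    rw [IsCyclic.card_mulAut, hPcard, Nat.totient_prime (by norm_num)]
  have he6 : Nat.card α'.range ∣ 6 := haut ▸ Subgroup.card_subgroup_dvd_card _
  have he : Nat.card α'.range ≠ 6 := by
    intro h6
    have htop : α'.range = ⊤ := Subgroup.eq_top_of_card_eq _ (h6.trans haut.symm)
    have : IsCyclic Q := isCyclic_of_prime_card hPcard
    have hcy : IsCyclic (MulAut Q) := by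
      have e := IsCyclic.mulAutMulEquiv Q
      rw [hPcard] at e
      have : IsCyclic (ZMod 7)ˣ := inferInstance
      exact e.isCyclic.2 this
    obtain ⟨g, hg⟩ := IsCyclic.exists_generator (α := MulAut Q)
    obtain ⟨y, hy⟩ : ∃ y, α' y = g := MonoidHom.range_eq_top.1 htop g
    have hd : 6 ∣ orderOf y := by
      rw [← haut, ← orderOf_eq_card_of_forall_mem_zpowers hg, ← hy]
      exact orderOf_map_dvd _ _
    have h3 := hEO.orderOf_eq Nat.prime_three (by norm_num)
      (show 3 ∣ orderOf (y : G) by rw [Subgroup.orderOf_coe]; exact (dvd_trans (by norm_num) hd))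
    rw [Subgroup.orderOf_coe] at h3
    rw [h3] at hd
    norm_num at hd
  -- the intersection with `N` has order 21
  have hXN : Nat.card ↥(X ⊓ N) = 21 := by
    rw [← (hsyl P).2, ← Subgroup.card_map_of_injective N.subtype_injective]
    congr 2
    ext b
    constructor
    · rintro ⟨hbX, hbN⟩
      refine ⟨⟨b, hbN⟩, ?_, rfl⟩
      rw [SetLike.mem_coe, Subgroup.mem_normalizer_iff]
      intro c
      have := Subgroup.mem_normalizer_iff.1 hbX (c : G)
      simp only [hQdef] at this
      constructor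
      · intro hc
        obtain ⟨d, hd, hde⟩ := this.1 ⟨c, hc, rfl⟩
        have : d = ⟨b, hbN⟩ * c * ⟨b, hbN⟩⁻¹ := Subtype.ext hde
        exact this ▸ hd
      · intro hc
        obtain ⟨d, hd, hde⟩ := this.2 ⟨_, hc, rfl⟩
        exact (Subtype.ext hde : d = c) ▸ hd
    · rintro ⟨b, hb, rfl⟩
      refine ⟨?_, b.2⟩
      show (b : G) ∈ Subgroup.normalizer (Q : Set G)
      rw [Subgroup.mem_normalizer_iff]
      intro c
      constructor
      · rintro ⟨d, hd, rfl⟩
        exact ⟨b * d * b⁻¹, (Subgroup.mem_normalizer_iff.1 hb d).1 hd, rfl⟩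
      · rintro ⟨d, hd, hde⟩
        refine ⟨b⁻¹ * d * b, (Subgroup.mem_normalizer_iff''.1 hb d).1 hd, ?_⟩
        rw [map_mul, map_mul, map_inv, hde]
        simp [mul_assoc]
  have h21 : 21 ∣ Nat.card X := hXN ▸ Subgroup.card_dvd_of_le inf_le_left
  have he3 : Nat.card α'.range = 3 := by
    rw [hcardX] at h21
    have := Nat.le_of_dvd (by norm_num) he6
    have := Nat.card_pos (α := α'.range)
    omega
  have hXle : X ≤ N := by
    have : X ⊓ N = X := Subgroup.eq_of_le_of_card_ge inf_le_left (by rw [hXN, hcardX, he3])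
    exact inf_eq_left.1 this
  rwa [sup_eq_right.2 hXle] at hFr

/-- The recognition theorem. -/
theorem equiv_P7 : ∀ (n : ℕ) (G : Type u) [Group G] [Finite G], Nat.card G = n → EO G →
    3 ≤ (Nat.card G).primeFactors.card → Nonempty (G ≃* P7) := by
  intro n
  induction n using Nat.strong_induction_on with
  | _ n ih =>
  intro G _ _ hn hEO h3
  classical
  subst hn
  have hnt : Nontrivial G := Finite.one_lt_card_iff_nontrivial.1 (by
    by_contra h
    rw [show Nat.card G = 1 by have := Nat.card_pos (α := G); omega, Nat.primeFactors_one] at h3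
    simp at h3)
  have ihH : ∀ H : Subgroup G, H ≠ ⊤ → 3 ≤ (Nat.card H).primeFactors.card → Nonempty (H ≃* P7) :=
    fun H hH h => ih _ (lt_of_le_of_ne (Subgroup.card_le_card_group H)
      fun e => hH (Subgroup.eq_top_of_card_eq H e)) H rfl (hEO.subgroup H) h
  by_cases hsimple : IsSimpleGroup G
  · exact equiv_P7_of_simple hEO h3 hsimple ihH
  exfalso
  obtain ⟨N, hN, hN0, hN1⟩ : ∃ N : Subgroup G, N.Normal ∧ N ≠ ⊥ ∧ N ≠ ⊤ := by
    by_contra hcon
    push Not at hcon
    exact hsimple ⟨fun N hN => or_iff_not_imp_left.2 (hcon N hN)⟩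
  rcases le_or_gt 3 (Nat.card N).primeFactors.card with hN3 | hN2
  · obtain ⟨e⟩ := ihH N hN1 hN3
    exact hN1 (eq_top_of_P7 hEO e)
  have := isSolvable_of_primeFactors_le (H := N) (by omega)
  obtain ⟨p, hp, A, hA, hAc, hAp, hA0, hAN⟩ := CfsgLib.BGTypes.exists_normal_abelian_pGroup_le hN0
  have hlt : Nat.card (G ⧸ A) < Nat.card G := by
    rw [Subgroup.card_eq_card_quotient_mul_card_subgroup A]
    exact lt_mul_of_one_lt_right Nat.card_pos (Subgroup.one_lt_card_iff_ne_bot A |>.2 hA0)
  have hQ : EO (G ⧸ A) := hEO.of_surjective _ (QuotientGroup.mk'_surjective A)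
  rcases le_or_gt 3 (Nat.card (G ⧸ A)).primeFactors.card with hQ3 | hQ2
  swap
  · have hs : Group.IsSolvable (G ⧸ A) := isSolvable_of_primeFactors_le (by omega)
    have hsA : Group.IsSolvable A := by
      have := hAp.isNilpotent
      infer_instance
    have : Group.IsSolvable G := by
      refine solvable_of_ker_le_range A.subtype (QuotientGroup.mk' A) ?_
      rw [QuotientGroup.ker_mk', Subgroup.range_subtype]
    have := hEO.primeFactors_le_of_solvable
    omega
  obtain ⟨e⟩ := ih _ hlt (G ⧸ A) rfl hQ hQ3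
  have hcQ : Nat.card (G ⧸ A) = 168 := (Nat.card_congr e.toEquiv).trans card_P7
  have hQsimple : IsSimpleGroup (G ⧸ A) := by
    have := simple_P7
    have := e.toEquiv.nontrivial
    exact IsSimpleGroup.isSimpleGroup_of_surjective e.symm.toMonoidHom e.symm.surjective
  let π := QuotientGroup.mk' A
  have hAcomm : ∀ a ∈ A, ∀ b ∈ A, a * b = b * a := fun a ha b hb =>
    congrArg Subtype.val (mul_comm' (⟨a, ha⟩ : A) ⟨b, hb⟩)
  obtain ⟨⟨a₀, ha₀⟩, hne₀⟩ := Subgroup.ne_bot_iff_exists_ne_one.1 hA0
  have ha₀1 : a₀ ≠ 1 := fun h => hne₀ (Subtype.ext h)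
  have hpd : p ∣ orderOf a₀ := by
    obtain ⟨j, hj⟩ := IsPGroup.iff_orderOf.1 hAp ⟨a₀, ha₀⟩
    rw [Subgroup.orderOf_mk] at hj
    rcases j with _ | j
    · exact absurd (orderOf_eq_one_iff.1 (by simpa using hj)) ha₀1
    · exact hj ▸ dvd_pow_self p (Nat.succ_ne_zero j)
  by_cases hp2 : p = 2
  · subst hp2
    -- an element of order three acting on a Sylow 7-subgroup
    obtain ⟨a₇, ha₇⟩ := exists_prime_orderOf_dvd_card' (G := G) 7
      ((show 7 ∣ Nat.card (G ⧸ A) by rw [hcQ]; norm_num).trans
        (Subgroup.card_eq_card_quotient_mul_card_subgroup A ▸ dvd_mul_right _ _))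
    set Q := Subgroup.zpowers a₇ with hQdef
    have hQc : Nat.card Q = 7 := by rw [hQdef, Nat.card_zpowers, ha₇]
    set B := Q ⊔ A with hB
    have hQB : Q ≤ B := le_sup_left
    obtain ⟨m, hm⟩ := IsPGroup.iff_card.1 hAp
    have hBcard : Nat.card B ∣ 7 * 2 ^ m := by
      rw [← hQc, ← hm, ← Nat.card_congr (Subgroup.subgroupOfEquivOfLe hQB).toEquiv,
        ← Nat.card_congr (Subgroup.subgroupOfEquivOfLe (le_sup_right : A ≤ B)).toEquiv]
      exact CfsgLib.OrderDegrees.card_dvd_of_sup_eq_top _ _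
        (Subgroup.codisjoint_subgroupOf_sup Q A).eq_top
    have hfib : IsPGroup 7 (Q.subgroupOf B) := IsPGroup.of_card (n := 1)
      (by rw [Nat.card_congr (Subgroup.subgroupOfEquivOfLe hQB).toEquiv, hQc, pow_one])
    obtain ⟨P, hP⟩ := hfib.exists_le_sylow
    have hPQ : (P : Subgroup B) = Q.subgroupOf B := by
      refine (Subgroup.eq_of_le_of_card_ge hP ?_).symm
      obtain ⟨j, hj⟩ := IsPGroup.iff_card.1 P.2
      rw [Nat.card_congr (Subgroup.subgroupOfEquivOfLe hQB).toEquiv, hQc, hj]
      have h1 : 7 ^ j ∣ 7 * 2 ^ m := hj ▸ (Subgroup.card_subgroup_dvd_card _).trans hBcard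
      have h2 : 7 ^ j ∣ 7 := ((Nat.Coprime.pow j m (by norm_num : Nat.Coprime 7 2))).dvd_of_dvd_mul_right h1
      exact Nat.le_of_dvd (by norm_num) h2
    -- the Sylow subgroup of the quotient
    have hQb : Nat.card (Q.map π) = 7 := by
      have h1 : orderOf (π a₇) = 7 := by
        refine orderOf_eq_prime (by rw [← map_pow, ← ha₇, pow_orderOf_eq_one, map_one]) fun h => ?_
        have h2 : a₇ ∈ A := (QuotientGroup.eq_one_iff a₇).1 h
        obtain ⟨j, hj⟩ := IsPGroup.iff_orderOf.1 hAp ⟨a₇, h2⟩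
        rw [Subgroup.orderOf_mk, ha₇] at hj
        exact absurd ((by norm_num : Nat.Prime 7).dvd_of_dvd_pow (dvd_of_eq hj)) (by norm_num)
      rw [hQdef, MonoidHom.map_zpowers, Nat.card_zpowers, h1]
    obtain ⟨P', hP'⟩ := (IsPGroup.of_card (n := 1) (by rw [hQb, pow_one]) :
      IsPGroup 7 (Q.map π)).exists_le_sylow
    have hPQ' : Q.map π = P' := by
      refine Subgroup.eq_of_le_of_card_ge hP' ?_
      rw [hQb, P'.card_eq_multiplicity, hcQ, show 168 = 7 * 24 by norm_num,
        Nat.factorization_mul (by norm_num) (by norm_num), Finsupp.add_apply,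
        (by norm_num : Nat.Prime 7).factorization, Finsupp.single_eq_same,
        Nat.factorization_eq_zero_of_not_dvd (by norm_num : ¬ 7 ∣ 24)]
      norm_num
    obtain ⟨-, hsyl⟩ := CfsgLib.SmallGroups.Order168.sylow_seven (G := G ⧸ A) hcQ
    have h21 := (hsyl P').2
    rw [← hPQ'] at h21
    have : Fact (Nat.Prime 3) := ⟨Nat.prime_three⟩
    obtain ⟨⟨yb, hyb⟩, hyo⟩ := exists_prime_orderOf_dvd_card'
      (G := Subgroup.normalizer (Q.map π : Set (G ⧸ A))) 3 (by rw [h21]; norm_num)
    rw [Subgroup.orderOf_mk] at hyo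
    obtain ⟨y₀, hy₀⟩ := QuotientGroup.mk'_surjective A yb
    change π y₀ = yb at hy₀
    -- conjugation by `y₀` preserves `B`
    have hBpre : B = (Q.map π).comap π := by
      rw [Subgroup.comap_map_eq, QuotientGroup.ker_mk', hB]
    have hy₀B : ∀ b ∈ Q, y₀ * b * y₀⁻¹ ∈ B := by
      intro b hb
      rw [hBpre, Subgroup.mem_comap, map_mul, map_mul, map_inv, hy₀]
      exact (Subgroup.mem_normalizer_iff.1 hyb _).1 ⟨b, hb, rfl⟩
    let Q₂ : Subgroup B := (Q.map (MulAut.conj y₀).toMonoidHom).subgroupOf B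
    have hQ₂le : Q.map (MulAut.conj y₀).toMonoidHom ≤ B := by
      rintro _ ⟨b, hb, rfl⟩; exact hy₀B b hb
    obtain ⟨P₂, hP₂⟩ := (IsPGroup.of_card (n := 1) (by
      rw [Nat.card_congr (Subgroup.subgroupOfEquivOfLe hQ₂le).toEquiv,
        Subgroup.card_map_of_injective (MulAut.conj y₀).injective, hQc, pow_one]) : IsPGroup 7 Q₂).exists_le_sylow
    obtain ⟨b, hb⟩ := MulAction.exists_smul_eq B P P₂
    set y := (b : G)⁻¹ * y₀ with hydef
    have hyQ : ∀ c ∈ Q, y * c * y⁻¹ ∈ Q := by
      intro c hc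
      have h1 : (⟨y₀ * c * y₀⁻¹, hy₀B c hc⟩ : B) ∈ (P₂ : Subgroup B) := hP₂ ⟨c, hc, rfl⟩
      rw [← hb, Sylow.coe_subgroup_smul, hPQ] at h1
      obtain ⟨d, hd, hde⟩ := h1
      have hde' : (b : G) * d * (b : G)⁻¹ = y₀ * c * y₀⁻¹ := congrArg Subtype.val hde
      rw [show y * c * y⁻¹ = (b : G)⁻¹ * (y₀ * c * y₀⁻¹) * b by rw [hydef]; group, ← hde']
      simpa [mul_assoc, Subgroup.mem_subgroupOf] using hd
    have hπy : π y = (π b)⁻¹ * yb := by rw [hydef, map_mul, map_inv, hy₀]
    have hbQ : π b ∈ Q.map π := by rw [← Subgroup.mem_comap, ← hBpre]; exact b.2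
    have h3y : 3 ∣ orderOf y := by
      have hm : π y ∈ Subgroup.normalizer (Q.map π : Set (G ⧸ A)) := by
        rw [hπy]; exact mul_mem (inv_mem (Subgroup.le_normalizer hbQ)) hyb
      have h1 : orderOf (π y) ∣ 21 := h21 ▸ Subgroup.orderOf_dvd_natCard _ hm
      refine dvd_trans ?_ (orderOf_map_dvd π y)
      by_contra h3'
      have h2 : orderOf (π y) ∣ 7 := (Nat.Coprime.dvd_of_dvd_mul_left
        ((Nat.prime_three.coprime_iff_not_dvd.2 h3').symm) (show orderOf (π y) ∣ 3 * 7 from h1))
      -- then `yb` would lie in the Sylow subgroup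
      have hfix : IsPGroup 7 (Q.map π ⊔ Subgroup.zpowers (π y) : Subgroup (G ⧸ A)) := by
        refine IsPGroup.to_sup_of_normal_left' (IsPGroup.of_card (n := 1) (by rw [hQb, pow_one])) ?_
          (Subgroup.zpowers_le.2 hm)
        obtain ⟨j, -, hj⟩ := (Nat.dvd_prime_pow (by norm_num : Nat.Prime 7)).1
          (show orderOf (π y) ∣ 7 ^ 1 by simpa using h2)
        exact IsPGroup.of_card (n := j) (by rw [Nat.card_zpowers, hj])
      have h4 := P'.3 hfix (hPQ' ▸ le_sup_left)
      have h5 : π y ∈ Q.map π := by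
        rw [hPQ', ← h4]; exact le_sup_right (a := Q.map π) (Subgroup.mem_zpowers _)
      have h6 : yb ∈ Q.map π := by
        rw [show yb = π b * π y by rw [hπy, mul_inv_cancel_left]]
        exact mul_mem hbQ h5
      have h7 := Subgroup.orderOf_dvd_natCard _ h6
      rw [hQb, hyo] at h7
      norm_num at h7
    have hy3 := hEO.orderOf_eq Nat.prime_three (by norm_num) h3y
    have hQ7 : ∀ c ∈ Q, c ≠ 1 → orderOf c = 7 := by
      intro c hc h1
      have := Subgroup.orderOf_dvd_natCard _ hc
      rw [hQc] at this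
      exact ((Nat.dvd_prime (by norm_num)).1 this).resolve_left fun h => h1 (orderOf_eq_one_iff.1 h)
    obtain ⟨w, hw, hw1, hwy⟩ := CfsgLib.OrderDegrees.exists_fixed_of_frobenius_action A Q y 3
      (by norm_num) (by rw [← hy3, pow_orderOf_eq_one]) hAcomm
      (fun c _ v hv => hA.conj_mem v hv c) (fun v hv => hA.conj_mem v hv y) hyQ
      (fun i hi hi3 c hc hfix => by
        by_contra hc1
        have ho : orderOf (y ^ i) = 3 := by
          rw [orderOf_pow' _ (by omega), hy3]
          interval_cases i <;> norm_num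
        exact hEO.not_commute Nat.prime_three (by norm_num : Nat.Prime 7) (by norm_num)
          (dvd_of_eq ho.symm) (dvd_of_eq (hQ7 c hc hc1).symm) (mul_inv_eq_iff_eq_mul.1 hfix))
      (fun v hv hfix => by
        by_contra hv1
        obtain ⟨j, hj⟩ := IsPGroup.iff_orderOf.1 hAp ⟨v, hv⟩
        rw [Subgroup.orderOf_mk] at hj
        exact hEO.not_commute Nat.prime_two (by norm_num : Nat.Prime 7) (by norm_num)
          (two_dvd_orderOf hv1 hj) (by rw [ha₇])
          (mul_inv_eq_iff_eq_mul.1 (hfix a₇ (Subgroup.mem_zpowers a₇))).symm)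
      a₀ ha₀ (fun h7 => by
        have h1 := orderOf_dvd_of_pow_eq_one (hQc ▸ h7)
        rcases (Nat.dvd_prime (by norm_num : Nat.Prime 7)).1 h1 with h2 | h2 <;> rw [h2] at hpd <;>
          norm_num at hpd)
    obtain ⟨j, hj⟩ := IsPGroup.iff_orderOf.1 hAp ⟨w, hw⟩
    rw [Subgroup.orderOf_mk] at hj
    exact hEO.not_commute Nat.prime_two Nat.prime_three (by norm_num) (two_dvd_orderOf hw1 hj)
      (dvd_of_eq hy3.symm) (mul_inv_eq_iff_eq_mul.1 hwy).symm
  · -- a four-group acting without fixed points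
    have : Fact (Nat.Prime 2) := ⟨Nat.prime_two⟩
    obtain ⟨S⟩ : Nonempty (Sylow 2 G) := inferInstance
    obtain ⟨m, hm⟩ := IsPGroup.iff_card.1 hAp
    have hpodd : ¬ 2 ∣ Nat.card A := by
      rw [hm]
      intro h
      exact hp2 ((Nat.prime_dvd_prime_iff_eq Nat.prime_two hp.out).1 (Nat.prime_two.dvd_of_dvd_pow h)).symm
    have hS : Nat.card (S : Subgroup G) = 8 := by
      rw [S.card_eq_multiplicity, Subgroup.card_eq_card_quotient_mul_card_subgroup A, hcQ,
        show 168 = 2 ^ 3 * 21 by norm_num, Nat.factorization_mul (by norm_num) Nat.card_pos.ne',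
        Nat.factorization_mul (by norm_num) (by norm_num), Finsupp.add_apply, Finsupp.add_apply,
        Nat.factorization_eq_zero_of_not_dvd hpodd, Nat.Prime.factorization_pow Nat.prime_two,
        Finsupp.single_eq_same, Nat.factorization_eq_zero_of_not_dvd (by norm_num : ¬ 2 ∣ 21)]
      rfl
    have hinv : ∀ t : G, orderOf t = 2 → t * a₀ * t⁻¹ = a₀⁻¹ := by
      intro t ht
      set b := a₀ * (t * a₀ * t⁻¹) with hb
      have htt : t * t = 1 := by rw [← pow_two, ← ht, pow_orderOf_eq_one]
      have htinv : t⁻¹ = t := inv_eq_of_mul_eq_one_right htt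
      have hbA : b ∈ A := A.mul_mem ha₀ (hA.conj_mem _ ha₀ t)
      have hc : Commute b t := by
        show b * t = t * b
        calc b * t = (t * a₀ * t⁻¹) * a₀ * t := by rw [hb, hAcomm a₀ ha₀ _ (hA.conj_mem _ ha₀ t)]
          _ = t * b := by rw [hb, htinv]; simp [mul_assoc, htt]
      by_contra hne
      have hb1 : b ≠ 1 := fun h => hne (eq_inv_of_mul_eq_one_right h)
      obtain ⟨j, hj⟩ := IsPGroup.iff_orderOf.1 hAp ⟨b, hbA⟩
      rw [Subgroup.orderOf_mk] at hj
      rcases j with _ | j
      · exact hb1 (orderOf_eq_one_iff.1 (by simpa using hj))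
      · exact hEO.not_commute hp.out Nat.prime_two hp2 (hj ▸ dvd_pow_self p (Nat.succ_ne_zero j))
          (dvd_of_eq ht.symm) hc
    -- two commuting involutions
    obtain ⟨t, u, ht, hu, htu, hne⟩ : ∃ t u : G, orderOf t = 2 ∧ orderOf u = 2 ∧ Commute t u ∧ t ≠ u := by
      have hS2 : IsPGroup 2 (S : Subgroup G) := S.2
      by_contra hno
      push Not at hno
      -- otherwise a unique involution in a Sylow subgroup isomorphic to one of the quotient
      let f : (S : Subgroup G) →* G ⧸ A := π.comp (S : Subgroup G).subtype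
      have hf : Function.Injective f := by
        rw [← MonoidHom.ker_eq_bot_iff, Subgroup.eq_bot_iff_forall]
        intro z hz
        have hzA : (z : G) ∈ A := (QuotientGroup.eq_one_iff _).1 hz
        by_contra hz1
        obtain ⟨j, hj⟩ := IsPGroup.iff_orderOf.1 hS2 z
        have h2 := two_dvd_orderOf (fun e => hz1 (Subtype.ext e)) (g := (z : G))
          (k := j) (by rw [Subgroup.orderOf_coe, hj])
        exact hpodd (h2.trans (Subgroup.orderOf_dvd_natCard A hzA))
      have hr : Nat.card f.range = 8 := by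
        rw [← hS]; exact (Nat.card_congr (MonoidHom.ofInjective hf).toEquiv).symm
      obtain ⟨T, hT⟩ := (IsPGroup.of_card (n := 3) (by rw [hr]; rfl) : IsPGroup 2 f.range).exists_le_sylow
      have hTeq : f.range = T := Subgroup.eq_of_le_of_card_ge hT (by
        rw [hr, CfsgLib.SmallGroups.Order168.card_sylow_two_subgroup hcQ T])
      obtain ⟨z, hzT, hz2, hzC⟩ := CfsgLib.SmallGroups.Order168.exists_central_involution hcQ T
      obtain ⟨w, hwT, hw2, v, hvT, hvw⟩ := CfsgLib.SmallGroups.Order168.exists_noncentral_involution hcQ T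
      have hzw : z ≠ w := fun h => hvw (h ▸ hzC v hvT)
      have hcm : w * z = z * w := hzC w hwT
      rw [← hTeq] at hzT hwT
      obtain ⟨z', rfl⟩ := hzT
      obtain ⟨w', rfl⟩ := hwT
      rw [← map_mul, ← map_mul] at hcm
      refine hzw (congrArg f (Subtype.ext (hno (z' : G) (w' : G) ?_ ?_ ?_)))
      · rw [Subgroup.orderOf_coe, ← orderOf_injective f hf, hz2]
      · rw [Subgroup.orderOf_coe, ← orderOf_injective f hf, hw2]
      · exact (congrArg Subtype.val (hf hcm)).symm
    refine absurd ?_ (fun h : Commute a₀ (t * u) => ?_)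
    · show a₀ * (t * u) = t * u * a₀
      have h1 := hinv t ht
      have h2 := hinv u hu
      have h3 : t * u * a₀ * (t * u)⁻¹ = a₀ := by
        calc t * u * a₀ * (t * u)⁻¹ = t * (u * a₀ * u⁻¹) * t⁻¹ := by group
          _ = (t * a₀ * t⁻¹)⁻¹ := by rw [h2]; group
          _ = a₀ := by rw [h1, inv_inv]
      exact (mul_inv_eq_iff_eq_mul.1 h3).symm
    · have htu2 : orderOf (t * u) = 2 := by
        refine orderOf_eq_prime ?_ fun e => hne ?_
        · rw [htu.mul_pow, ← ht, pow_orderOf_eq_one, ht, ← hu, pow_orderOf_eq_one, one_mul]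
        · rw [eq_inv_of_mul_eq_one_left e]
          exact inv_eq_of_mul_eq_one_right (by rw [← pow_two, ← hu, pow_orderOf_eq_one])
      exact hEO.not_commute hp.out Nat.prime_two hp2 hpd (dvd_of_eq htu2.symm) h

end CfsgLib.PrimeElementOrders
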